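import Mathlib

/-!
Permutational wreath products `(ι → S) ⋊ P` for `P ≤ Perm ι`, and a solvable tower.
-/

set_option autoImplicit false

namespace Cfsg.Agent.MaxSub.Wr

variable {ι : Type} {S : Type} [Group S] (P : Subgroup (Equiv.Perm ι))

/-- The coordinate action of `P` on `ι → S`. -/
def act : P →* MulAut (ι → S) where
  toFun p :=
    { toFun := fun f i => f ((p : Equiv.Perm ι)⁻¹ i)
      invFun := fun f i => f ((p : Equiv.Perm ι) i)
      left_inv := fun f => by funext i; simp
      right_inv := fun f => by funext i; simp
      map_mul' := fun f g => rfl }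
  map_one' := by ext f i; simp
  map_mul' p q := by ext f i; simp

theorem act_apply (p : P) (f : ι → S) (i : ι) : act P p f i = f ((p : Equiv.Perm ι)⁻¹ i) := rfl

variable [DecidableEq ι]

/-- The base element with `s` at `i`, `s⁻¹` at `j`, one elsewhere. -/
def delta (i j : ι) (s : S) : ι → S := Pi.mulSingle i s * Pi.mulSingle j s⁻¹

theorem delta_self_apply {i j : ι} (h : i ≠ j) (s : S) : delta i j s i = s := by
  simp [delta, h]

theorem act_delta (p : P) (i j : ι) (s : S) :
    act P p (delta i j s) = delta ((p : Equiv.Perm ι) i) ((p : Equiv.Perm ι) j) s := by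
  funext k
  rw [act_apply]
  simp only [delta, Pi.mul_apply, Pi.mulSingle_apply]
  congr 1 <;> congr 1 <;> simp only [eq_iff_iff] <;> constructor <;> intro h <;>
    first
    | (rw [← h]; simp)
    | (rw [h]; simp)

open SemidirectProduct commutatorElement in
theorem conj_inl (p : P) (f : ι → S) :
    (inr p : (ι → S) ⋊[act P] P) * inl f * (inr p)⁻¹ = inl (act P p f) := by
  rw [← map_inv, ← inl_aut]

end Cfsg.Agent.MaxSub.Wr

namespace Cfsg.Agent.MaxSub

open SemidirectProduct commutatorElement in
/-- Finite solvable groups of arbitrarily large derived length. -/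
theorem exists_solvable_derivedSeries_ne_bot : ∀ d : ℕ, ∃ (S : Type) (_ : Group S) (_ : Finite S),
    Group.IsSolvable S ∧ derivedSeries S d ≠ ⊥ := by
  intro d
  induction d with
  | zero =>
    refine ⟨Multiplicative (ZMod 2), inferInstance, inferInstance, inferInstance, ?_⟩
    rw [derivedSeries_zero]
    exact top_ne_bot
  | succ d ih =>
    obtain ⟨S, _, _, hS, hd⟩ := ih
    let P : Subgroup (Equiv.Perm Bool) := ⊤
    let W := (Bool → S) ⋊[Wr.act P] P
    haveI : Finite W := Finite.of_equiv _ SemidirectProduct.equivProd.symm
    have hbase : Group.IsSolvable (Bool → S) := by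
      let e : (Bool → S) →* S × S := (Pi.evalMonoidHom _ true).prod (Pi.evalMonoidHom _ false)
      exact Group.isSolvable_of_isSolvable_injective (f := e) fun f g h => by
        funext b; cases b
        · exact congrArg Prod.snd h
        · exact congrArg Prod.fst h
    have hP : ∀ a b : P, a * b = b * a := by
      have : ∀ a b : Equiv.Perm Bool, a * b = b * a := by decide
      exact fun a b => Subtype.ext (this a b)
    have hWsol : Group.IsSolvable W :=
      haveI := Group.isSolvable_of_comm hP
      @Group.isSolvable_of_ker_le_range W _ (Bool → S) P _ _ (inl : (Bool → S) →* W) rightHom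
        range_inl_eq_ker_rightHom.ge hbase this
    refine ⟨W, inferInstance, inferInstance, hWsol, fun hbot => hd ?_⟩
    have hD : commutator W ≤ (rightHom : W →* P).ker := by
      rw [commutator_def, Subgroup.commutator_le]
      intro a _ b _
      rw [MonoidHom.mem_ker, commutatorElement_def, map_mul, map_mul, map_mul, map_inv, map_inv,
        hP (rightHom a) (rightHom b), mul_inv_cancel_right, mul_inv_cancel]
    let proj : commutator W →* S :=
      { toFun := fun w => (w : W).left true
        map_one' := rfl
        map_mul' := fun v w => by
          have : ((v : W).right) = 1 := hD v.2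
          show ((v : W) * (w : W)).left true = _
          rw [mul_left, this, map_one]
          rfl }
    have hsurj : Function.Surjective proj := by
      intro s
      let q : P := ⟨Equiv.swap true false, trivial⟩
      let f : Bool → S := Pi.mulSingle true s
      refine ⟨⟨(@Bracket.bracket W W _ (inl f) (inr q)), Subgroup.commutator_mem_commutator (Subgroup.mem_top _) (Subgroup.mem_top _)⟩, ?_⟩
      show ((@Bracket.bracket W W _ (inl f) (inr q))).left true = s
      rw [commutatorElement_def, mul_assoc, mul_assoc, ← mul_assoc (inr q), ← map_inv,
        Wr.conj_inl, ← map_mul, left_inl]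
      simp [Wr.act_apply, f, q]
    have key : ∀ n, derivedSeries S n ≤ ((derivedSeries W (n + 1)).subgroupOf (commutator W)).map proj := by
      intro n
      induction n with
      | zero =>
        intro s _
        obtain ⟨w, rfl⟩ := hsurj s
        refine ⟨w, ?_, rfl⟩
        simp [Subgroup.mem_subgroupOf]
      | succ n ihn =>
        rw [derivedSeries_succ]
        refine (Subgroup.commutator_mono ihn ihn).trans ?_
        rw [← Subgroup.map_commutator]
        refine Subgroup.map_mono ?_
        rw [Subgroup.commutator_le]
        intro a ha b hb
        exact Subgroup.commutator_mem_commutator ha hb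
    rw [eq_bot_iff]
    refine (key d).trans ?_
    rw [hbot, Subgroup.bot_subgroupOf, Subgroup.map_bot]

end Cfsg.Agent.MaxSub
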